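import Cfsg.Prelude.Def_CaseTheorems
import Cfsg.Agent.Lib.Core.Basic

/-!
# Groups all of whose non-cyclic subgroups contain their centralizers
-/

set_option autoImplicit false
set_option linter.unusedSectionVars false
set_option linter.style.haveILetI false

namespace Cfsg.Agent.Lib.SelfCent.Key

open Subgroup

variable {G : Type*} [Group G]

/-- Every non-cyclic subgroup contains its centralizer. -/
def SC (G : Type*) [Group G] : Prop :=
  ∀ H : Subgroup G, ¬ IsCyclic H → Subgroup.centralizer (H : Set G) ≤ H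

/-- A finite cyclic group has at most one involution. -/
lemma cyclic_involution_unique {A : Type*} [Group A] [Finite A] [IsCyclic A] {x y : A}
    (hx : orderOf x = 2) (hy : orderOf y = 2) : x = y := by
  classical
  haveI := Fintype.ofFinite A
  by_contra hne
  have h1 := IsCyclic.card_pow_eq_one_le (α := A) (n := 2) (by norm_num)
  have hx1 : x ≠ 1 := by
    rintro rfl
    simp at hx
  have hy1 : y ≠ 1 := by
    rintro rfl
    simp at hy
  have h2 : ({1, x, y} : Finset A) ⊆ Finset.univ.filter (fun a : A => a ^ 2 = 1) := by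
    intro a ha
    simp only [Finset.mem_insert, Finset.mem_singleton] at ha
    simp only [Finset.mem_filter, Finset.mem_univ, true_and]
    rcases ha with rfl | rfl | rfl
    · simp
    · rw [← hx]; exact pow_orderOf_eq_one _
    · rw [← hy]; exact pow_orderOf_eq_one _
  have h3 := Finset.card_le_card h2
  have h4 : ({1, x, y} : Finset A).card = 3 := by
    rw [Finset.card_insert_of_notMem, Finset.card_insert_of_notMem, Finset.card_singleton]
    · simpa using hne
    · simp only [Finset.mem_insert, Finset.mem_singleton, not_or]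
      exact ⟨hx1.symm, hy1.symm⟩
  omega

/-- Elements of a cyclic subgroup commute. -/
lemma mul_comm_of_isCyclic (K : Subgroup G) [IsCyclic K] (a b : K) : a * b = b * a := by
  obtain ⟨g, hg⟩ := IsCyclic.exists_generator (α := K)
  obtain ⟨i, rfl⟩ := Subgroup.mem_zpowers_iff.1 (hg a)
  obtain ⟨j, rfl⟩ := Subgroup.mem_zpowers_iff.1 (hg b)
  exact ((Commute.refl g).zpow_zpow i j).eq

/-- The subgroup `⟨w⟩ ∪ ⟨w⟩u`, for an involution `u` inverting `w`. -/
def dihSub (w u : G) (hu : u * u = 1) (h : u * w * u⁻¹ = w⁻¹) : Subgroup G where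
  carrier := {z | (∃ i : ℤ, z = w ^ i) ∨ ∃ i : ℤ, z = w ^ i * u}
  one_mem' := Or.inl ⟨0, by simp⟩
  mul_mem' := by
    have hz : ∀ j : ℤ, u * w ^ j = w ^ (-j) * u := by
      intro j
      have h1 : u * w ^ j * u⁻¹ = (u * w * u⁻¹) ^ j := by rw [conj_zpow]
      rw [h, inv_zpow', ] at h1
      rw [← h1]
      group
    have huinv : u⁻¹ = u := inv_eq_of_mul_eq_one_left hu
    rintro a b (⟨i, rfl⟩ | ⟨i, rfl⟩) (⟨j, rfl⟩ | ⟨j, rfl⟩)
    · exact Or.inl ⟨i + j, (zpow_add _ _ _).symm⟩
    · exact Or.inr ⟨i + j, by rw [zpow_add]; group⟩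
    · refine Or.inr ⟨i - j, ?_⟩
      rw [mul_assoc, hz, sub_eq_add_neg, zpow_add]
      group
    · refine Or.inl ⟨i - j, ?_⟩
      calc w ^ i * u * (w ^ j * u) = w ^ i * (u * w ^ j) * u := by group
        _ = w ^ i * (w ^ (-j) * u) * u := by rw [hz]
        _ = w ^ i * w ^ (-j) * (u * u) := by group
        _ = w ^ (i - j) := by rw [hu, mul_one, sub_eq_add_neg, zpow_add]
  inv_mem' := by
    have hz : ∀ j : ℤ, u * w ^ j = w ^ (-j) * u := by
      intro j
      have h1 : u * w ^ j * u⁻¹ = (u * w * u⁻¹) ^ j := by rw [conj_zpow]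
      rw [h, inv_zpow', ] at h1
      rw [← h1]
      group
    have huinv : u⁻¹ = u := inv_eq_of_mul_eq_one_left hu
    rintro a (⟨i, rfl⟩ | ⟨i, rfl⟩)
    · exact Or.inl ⟨-i, (zpow_neg _ _).symm⟩
    · refine Or.inr ⟨i, ?_⟩
      rw [mul_inv_rev, huinv, ← zpow_neg, hz, neg_neg]

lemma mem_dihSub {w u z : G} {hu : u * u = 1} {h : u * w * u⁻¹ = w⁻¹} :
    z ∈ dihSub w u hu h ↔ (∃ i : ℤ, z = w ^ i) ∨ ∃ i : ℤ, z = w ^ i * u := Iff.rfl

lemma u_mem_dihSub {w u : G} {hu : u * u = 1} {h : u * w * u⁻¹ = w⁻¹} : u ∈ dihSub w u hu h :=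
  Or.inr ⟨0, by simp⟩

lemma w_mem_dihSub {w u : G} {hu : u * u = 1} {h : u * w * u⁻¹ = w⁻¹} : w ∈ dihSub w u hu h :=
  Or.inl ⟨1, by simp⟩

lemma centralizer_dihSub {w u t : G} {hu : u * u = 1} {h : u * w * u⁻¹ = w⁻¹} (h1 : t * w = w * t)
    (h2 : t * u = u * t) : t ∈ Subgroup.centralizer ((dihSub w u hu h : Subgroup G) : Set G) := by
  rw [Subgroup.mem_centralizer_iff]
  have hw : ∀ i : ℤ, Commute t (w ^ i) := fun i => Commute.zpow_right h1 i
  rintro z (⟨i, rfl⟩ | ⟨i, rfl⟩)
  · exact (hw i).symm.eq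
  · exact ((hw i).mul_right h2).symm.eq

/-- The main consequence of `SC`: if an involution `t` centralizes an involution `s` and an odd order
element `y` inverted by `s`, then `y = 1`. -/
theorem key [Finite G] (h : SC G) {t s y : G} (ht : orderOf t = 2) (hs : s * s = 1)
    (hy : Odd (orderOf y)) (hsy : s * y * s⁻¹ = y⁻¹) (hty : t * y = y * t) (hts : t * s = s * t) :
    y = 1 := by
  by_contra hy1
  have hyy : y * y ≠ 1 := by
    intro h2
    have h3 : orderOf y ∣ 2 := orderOf_dvd_of_pow_eq_one (by rw [sq]; exact h2)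
    have h4 : orderOf y = 1 ∨ orderOf y = 2 := (Nat.dvd_prime Nat.prime_two).1 h3
    rcases h4 with h4 | h4
    · exact hy1 (orderOf_eq_one_iff.1 h4)
    · rw [h4] at hy
      exact absurd hy (by decide)
  have hncomm : ¬ s * y = y * s := by
    intro h2
    apply hyy
    have h3 : s * y * s⁻¹ = y := by rw [h2, mul_inv_cancel_right]
    rw [hsy] at h3
    nth_rewrite 1 [← h3]
    exact inv_mul_cancel y
  let K : Subgroup G := dihSub y s hs hsy
  have hK : ¬ IsCyclic K := by
    intro hc
    have h2 := mul_comm_of_isCyclic K ⟨s, u_mem_dihSub⟩ ⟨y, w_mem_dihSub⟩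
    exact hncomm (congrArg Subtype.val h2)
  have htK : t ∈ K := h K hK (centralizer_dihSub hty hts)
  rcases htK with ⟨i, rfl⟩ | ⟨i, rfl⟩
  · have h2 : orderOf (y ^ i) ∣ orderOf y := by
      have := orderOf_dvd_natCard (⟨y ^ i, mem_zpowers_iff.2 ⟨i, rfl⟩⟩ : zpowers y)
      rwa [Subgroup.orderOf_mk, Nat.card_zpowers] at this
    rw [ht] at h2
    exact (Nat.not_even_iff_odd.2 hy) (even_iff_two_dvd.2 h2)
  · apply hncomm
    have hw : Commute (y ^ i) y := (Commute.refl y).zpow_left i
    have h3 : y ^ i * s * y = y * (y ^ i * s) := hty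
    have h4 : y ^ i * (s * y) = y ^ i * (y * s) := by
      calc y ^ i * (s * y) = y ^ i * s * y := by group
        _ = y * (y ^ i * s) := h3
        _ = (y * y ^ i) * s := by group
        _ = (y ^ i * y) * s := by rw [hw.eq]
        _ = y ^ i * (y * s) := by group
    exact mul_left_cancel h4

/-- Two commuting involutions: their common centralizer is the four-group they generate. -/
theorem klein_cases [Finite G] (h : SC G) {t u w : G} (ht : orderOf t = 2) (hu : orderOf u = 2) (hne : u ≠ t)
    (hc : t * u = u * t) (hwt : w * t = t * w) (hwu : w * u = u * w) :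
    w = 1 ∨ w = t ∨ w = u ∨ w = t * u := by
  have htt : t * t = 1 := by
    rw [← sq, ← ht]
    exact pow_orderOf_eq_one t
  have huu : u * u = 1 := by
    rw [← sq, ← hu]
    exact pow_orderOf_eq_one u
  have htinv : t⁻¹ = t := inv_eq_of_mul_eq_one_left htt
  have hinv : u * t * u⁻¹ = t⁻¹ := by
    rw [htinv, ← hc, mul_inv_cancel_right]
  let K : Subgroup G := dihSub t u huu hinv
  have hK : ¬ IsCyclic K := by
    intro hcyc
    have htK : t ∈ K := w_mem_dihSub
    have huK : u ∈ K := u_mem_dihSub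
    have h1 : (⟨t, htK⟩ : K) = ⟨u, huK⟩ :=
      cyclic_involution_unique (by rw [Subgroup.orderOf_mk]; exact ht)
        (by rw [Subgroup.orderOf_mk]; exact hu)
    exact hne (congrArg Subtype.val h1).symm
  have hwK : w ∈ K := h K hK (centralizer_dihSub hwt hwu)
  have hpow : ∀ i : ℤ, t ^ i = 1 ∨ t ^ i = t := by
    intro i
    rcases Int.even_or_odd' i with ⟨m, rfl | rfl⟩
    · left
      rw [zpow_mul, zpow_two, htt, one_zpow]
    · right
      rw [zpow_add, zpow_mul, zpow_two, htt, one_zpow, one_mul, zpow_one]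
  rcases hwK with ⟨i, rfl⟩ | ⟨i, rfl⟩
  · rcases hpow i with h1 | h1
    · left; exact h1
    · right; left; exact h1
  · rcases hpow i with h1 | h1
    · right; right; left; rw [h1, one_mul]
    · right; right; right; rw [h1]

/-- Two distinct commuting involutions, and the odd core of the centralizer of one of them. -/
theorem oddCore_eq_bot [Finite G] (h : SC G) {t u : G} (ht : orderOf t = 2) (hu : orderOf u = 2)
    (hne : u ≠ t) (hc : t * u = u * t) :
    Cfsg.oddCore (Subgroup.centralizer ({t} : Set G)) = ⊥ := by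
  classical
  set C : Subgroup G := Subgroup.centralizer ({t} : Set G) with hC
  have huC : u ∈ C := by
    rw [hC, Subgroup.mem_centralizer_singleton_iff]
    exact hc.symm
  have huu : u * u = 1 := by
    rw [← sq, ← hu]
    exact pow_orderOf_eq_one u
  have huinv : u⁻¹ = u := inv_eq_of_mul_eq_one_left huu
  have hcop : (Nat.card (Cfsg.oddCore C)).Coprime 2 := Cfsg.Agent.Lib.Core.Basic.pPrimeCore_coprime
  have hodd : ∀ x ∈ Cfsg.oddCore C, Odd (orderOf x) := by
    intro x hx
    have h1 : orderOf x ∣ Nat.card (Cfsg.oddCore C) := Subgroup.orderOf_dvd_natCard _ hx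
    have h2 : (orderOf x).Coprime 2 := Nat.Coprime.coprime_dvd_left h1 hcop
    exact Nat.Coprime.odd_of_right h2
  rw [eq_bot_iff]
  intro w hw
  rw [Subgroup.mem_bot]
  have hn : (Cfsg.oddCore C).Normal := inferInstance
  let u' : C := ⟨u, huC⟩
  have hu'u' : u' * u' = 1 := Subtype.ext huu
  have hu'inv : u'⁻¹ = u' := inv_eq_of_mul_eq_one_left hu'u'
  let d : C := u' * w * u'⁻¹ * w⁻¹
  have hd : d ∈ Cfsg.oddCore C :=
    Subgroup.mul_mem _ (hn.conj_mem _ hw _) (Subgroup.inv_mem _ hw)
  have hd1 : (d : G) = 1 := by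
    have hdo : Odd (orderOf (d : G)) := by
      rw [Subgroup.orderOf_coe]
      exact hodd d hd
    have hdt : t * (d : G) = (d : G) * t :=
      (Subgroup.mem_centralizer_singleton_iff.1 d.2).symm
    refine key h ht huu hdo ?_ hdt hc
    have h1 : u' * d * u'⁻¹ = d⁻¹ := by
      simp only [d, hu'inv]
      calc u' * (u' * w * u' * w⁻¹) * u' = (u' * u') * w * u' * w⁻¹ * u' := by group
        _ = w * u' * w⁻¹ * u' := by rw [hu'u', one_mul]
        _ = (u' * w * u' * w⁻¹)⁻¹ := by
            rw [show (u' * w * u' * w⁻¹)⁻¹ = w * u'⁻¹ * w⁻¹ * u'⁻¹ by group, hu'inv]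
    exact congrArg Subtype.val h1
  have hw1 : (w : G) * u = u * (w : G) := by
    have h1 : u' * w * u'⁻¹ * w⁻¹ = 1 := Subtype.ext hd1
    have h2 : u' * w * u'⁻¹ = w := by
      rw [← mul_inv_eq_one]
      exact h1
    have h3 : u' * w = w * u' := by
      calc u' * w = (u' * w * u'⁻¹) * u' := by group
        _ = w * u' := by rw [h2]
    exact (congrArg Subtype.val h3).symm
  have hwt : (w : G) * t = t * (w : G) := Subgroup.mem_centralizer_singleton_iff.1 w.2
  have hww : (w : G) * (w : G) = 1 := by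
    have htt : t * t = 1 := by
      rw [← sq, ← ht]
      exact pow_orderOf_eq_one t
    rcases klein_cases h ht hu hne hc hwt hw1 with h1 | h1 | h1 | h1
    · rw [h1, one_mul]
    · rw [h1, htt]
    · rw [h1, huu]
    · rw [h1]
      calc t * u * (t * u) = t * (u * t) * u := by group
        _ = t * (t * u) * u := by rw [hc]
        _ = (t * t) * (u * u) := by group
        _ = 1 := by rw [htt, huu, one_mul]
  have hwo : Odd (orderOf (w : G)) := by
    rw [Subgroup.orderOf_coe]
    exact hodd w hw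
  have h2 : orderOf (w : G) ∣ 2 := orderOf_dvd_of_pow_eq_one (by rw [sq]; exact hww)
  have h3 : orderOf (w : G) = 1 := by
    rcases (Nat.dvd_prime Nat.prime_two).1 h2 with h4 | h4
    · exact h4
    · rw [h4] at hwo
      exact absurd hwo (by decide)
  exact Subtype.ext (orderOf_eq_one_iff.1 h3)

/-- The product of two involutions of the centralizer of an involution is a `2`-element. -/
theorem two_element [Finite G] (h : SC G) {t u v : G} (ht : orderOf t = 2) (hu : u * u = 1)
    (hv : v * v = 1) (htu : t * u = u * t) (htv : t * v = v * t) :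
    ∃ e : ℕ, (u * v) ^ (2 ^ e) = 1 := by
  have huinv : u⁻¹ = u := inv_eq_of_mul_eq_one_left hu
  have hvinv : v⁻¹ = v := inv_eq_of_mul_eq_one_left hv
  have hd0 : orderOf (u * v) ≠ 0 := (orderOf_pos _).ne'
  obtain ⟨e, m, hm, he⟩ := Nat.exists_eq_two_pow_mul_odd hd0
  refine ⟨e, ?_⟩
  set d := u * v with hd
  have hdinv : u * d * u⁻¹ = d⁻¹ := by
    rw [huinv, hd, mul_inv_rev, huinv, hvinv]
    calc u * (u * v) * u = (u * u) * v * u := by group
      _ = v * u := by rw [hu, one_mul]
  have hdt : t * d = d * t := by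
    rw [hd]
    calc t * (u * v) = (t * u) * v := by group
      _ = u * (t * v) := by rw [htu]; group
      _ = u * (v * t) := by rw [htv]
      _ = u * v * t := by group
  have h1 : orderOf (d ^ (2 ^ e)) = m := by
    rw [orderOf_pow' _ (by positivity), he]
    have h2 : Nat.gcd (2 ^ e * m) (2 ^ e) = 2 ^ e := Nat.gcd_eq_right (dvd_mul_right _ _)
    rw [h2, Nat.mul_div_cancel_left _ (by positivity)]
  refine key h ht hu (by rw [h1]; exact hm) ?_ ((Commute.pow_right hdt _)) htu
  rw [← conj_pow, hdinv, inv_pow]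

end Cfsg.Agent.Lib.SelfCent.Key
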