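import Cfsg.Agent.Lib.Classical.SL2.Tori
import Cfsg.Agent.Lib.SelfCent.Key

/-!
# Commuting with a non-cyclic subgroup of `PSL₂(F)`

If `|F| ≤ p²` (`p` the characteristic) and every torus of `PSL₂(F)` of even order is a `2`-group, then an
element of `PSL₂(F)` commuting with a non-cyclic subgroup `H` lies in `H`.
-/

set_option autoImplicit false
set_option linter.unusedSectionVars false
set_option linter.style.haveILetI false

open scoped MatrixGroups
open Matrix OnePoint MulAction

namespace Cfsg.Agent.Lib.SelfCent.PSLCore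

open Cfsg.Agent.Lib.Classical.SL2.Moebius Cfsg.Agent.Lib.Classical.SL2.Rational
open Cfsg.Agent.Lib.Classical.SL2.Klein Cfsg.Agent.Lib.Classical.SL2.SubfieldCase
open Cfsg.Agent.Lib.Classical.SL2.Dickson Cfsg.Agent.Lib.Classical.SL2.Precise
open Cfsg.Agent.Lib.Classical.SL2.Tori
open Cfsg.Agent.Lib.Classical
open Cfsg.Agent.Lib.SelfCent.Key

local notation "PGL2" => ProjGenLinGroup (Fin 2)
local notation "PSL2" => ProjectiveSpecialLinearGroup (Fin 2)

variable {F E : Type*} [Field F] [Field E] [Algebra F E] [Fintype F] [DecidableEq F] [DecidableEq E]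
  [IsAlgClosed E]

theorem mem_of_commute {p : ℕ} [hp : Fact p.Prime] [CharP E p]
    (hqp : Fintype.card F ≤ p ^ 2)
    (hT : ∀ n : ℕ, Even n → (n * Nat.gcd 2 (Fintype.card F - 1) = Fintype.card F - 1 ∨
      n * Nat.gcd 2 (Fintype.card F - 1) = Fintype.card F + 1) → ∃ k : ℕ, n = 2 ^ k)
    (H : Subgroup (PGL2 F)) (hHL : H ≤ Lp F) {y : PGL2 F} (hyL : y ∈ Lp F)
    (hc : ∀ h ∈ H, h * y = y * h) (hH : ¬ IsCyclic H) : y ∈ H := by
  classical
  by_cases hy1 : y = 1
  · subst hy1
    exact H.one_mem
  letI : MulAction (PGL2 F) (OnePoint E) := MulAction.compHom _ (toE E)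
  let K : KleinAction (PGL2 F) (OnePoint E) E p :=
    (kleinPGL p).comap (toE E) (toE_injective E) (fun _ _ => rfl)
  have hswap : ∀ h ∈ H, ∀ ω : OnePoint E, y • (h • ω) = h • (y • ω) := by
    intro h hh ω
    rw [← mul_smul, ← mul_smul, hc h hh]
  rcases element_cases (MonoidHom.id _) Function.injective_id (fun g ω => rfl) K hy1 with
    ⟨c, hc1, hc2⟩ | ⟨a, b, hab, hpair, hya, hyb⟩
  · -- `y` has a unique fixed point
    set ω : OnePoint E := ιp E c with hω
    have hyU : y ∈ K.unip ω := K.mem_unip_of_forall hc1 hc2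
    have hHU : H ≤ K.unip ω := by
      intro h hh
      have h1 : h • ω = ω := by
        apply hc2
        rw [hswap h hh, hc1]
      by_contra hnot
      obtain ⟨ω', h2, h3⟩ := K.exists_fix_ne_of_notMem h1 hnot
      have h4 : h ≠ 1 := by
        rintro rfl
        exact hnot (one_mem _)
      have h5 : h • (y • ω') = y • ω' := by
        rw [← hswap h hh, h2]
      have h6 : y • ω' ≠ ω' := fun h7 => h3 (hc2 _ h7)
      have h7 : y • ω' ≠ ω := by
        intro h8
        rw [← hc1] at h8
        exact h3 (smul_left_cancel y h8)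
      rcases K.fix_three h ω ω' (y • ω') h4 h1 h2 h5 with h8 | h8 | h8
      · exact h3 h8.symm
      · exact h7 h8.symm
      · exact h6 h8.symm
    let U : Subgroup (PGL2 F) := K.unip ω ⊓ Lp F
    have hpU : IsPGroup p U := by
      rintro ⟨g, hg⟩
      refine ⟨1, Subtype.ext ?_⟩
      simpa using K.pow_p g ω hg.1.1 hg.1.2
    obtain ⟨m, hm⟩ := IsPGroup.iff_card.1 hpU
    have hHleU : H ≤ U := le_inf hHU hHL
    have hpH : IsPGroup p H := by
      rintro ⟨g, hg⟩
      refine ⟨1, Subtype.ext ?_⟩
      have h1 := hHU hg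
      simpa using K.pow_p g ω h1.1 h1.2
    obtain ⟨i, hi⟩ := IsPGroup.iff_card.1 hpH
    have hpp := hp.out
    -- `|H| ≥ p²`
    have hi2 : 2 ≤ i := by
      by_contra hlt
      apply hH
      have : i = 0 ∨ i = 1 := by omega
      rcases this with rfl | rfl
      · have : Subsingleton H := by
          rw [pow_zero] at hi
          exact (Nat.card_eq_one_iff_unique.1 hi).1
        infer_instance
      · rw [pow_one] at hi
        haveI : Fact (Nat.card H).Prime := ⟨hi ▸ hpp⟩
        exact isCyclic_of_prime_card rfl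
    -- `|U| ≤ q`
    haveI : CharP F p := (RingHom.charP_iff (algebraMap F E) (algebraMap F E).injective p).2 inferInstance
    obtain ⟨f, -, hqf⟩ := FiniteField.card F p
    have hpq : p ∣ Fintype.card F := by
      rw [hqf]
      exact dvd_pow_self p f.pos.ne'
    have hq1 : 1 < Fintype.card F := Fintype.one_lt_card
    have hUdvd : Nat.card U ∣ Fintype.card F * ((Fintype.card F - 1) * (Fintype.card F + 1)) := by
      have h1 : Nat.card U ∣ Nat.card (Lp F) := Subgroup.card_dvd_of_le inf_le_right
      rw [card_Lp] at h1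
      rw [← card_psl]
      exact h1.trans (dvd_mul_right _ _)
    have hcop : Nat.Coprime p ((Fintype.card F - 1) * (Fintype.card F + 1)) := by
      apply Nat.Coprime.mul_right
      · rw [Nat.Prime.coprime_iff_not_dvd hpp]
        intro h1
        have h2 : p ∣ 1 := by
          have := Nat.sub_sub_self hq1.le
          rw [← this]
          exact Nat.dvd_sub hpq h1
        exact hpp.one_lt.ne' (Nat.dvd_one.1 h2)
      · rw [Nat.Prime.coprime_iff_not_dvd hpp]
        intro h1
        have h2 : p ∣ 1 := (Nat.dvd_add_right hpq).1 h1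
        exact hpp.one_lt.ne' (Nat.dvd_one.1 h2)
    have hUq : Nat.card U ∣ Fintype.card F := by
      rw [hm] at hUdvd ⊢
      exact (Nat.Coprime.pow_left m hcop).dvd_of_dvd_mul_right hUdvd
    have hUle : Nat.card U ≤ Fintype.card F := Nat.le_of_dvd (by omega) hUq
    have hHge : p ^ 2 ≤ Nat.card H := by
      rw [hi]
      exact Nat.pow_le_pow_right hpp.pos hi2
    have heq : H = U := by
      apply Subgroup.eq_of_le_of_card_ge hHleU
      omega
    rw [heq]
    exact ⟨hyU, hyL⟩
  · -- `y` has two fixed points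
    have hfixa : ∀ h ∈ H, h • a = a ∨ h • a = b := by
      intro h hh
      have h1 : y • (h • a) = h • a := by rw [hswap h hh, hya]
      rcases K.fix_three y a b (h • a) hy1 hya hyb h1 with h2 | h2 | h2
      · exact absurd h2 hab
      · exact Or.inl h2.symm
      · exact Or.inr h2.symm
    have hfixb : ∀ h ∈ H, h • b = a ∨ h • b = b := by
      intro h hh
      have h1 : y • (h • b) = h • b := by rw [hswap h hh, hyb]
      rcases K.fix_three y a b (h • b) hy1 hya hyb h1 with h2 | h2 | h2
      · exact absurd h2 hab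
      · exact Or.inl h2.symm
      · exact Or.inr h2.symm
    have hDp : H ≤ Dp a b := by
      intro h hh
      rcases hfixa h hh with h1 | h1 <;> rcases hfixb h hh with h2 | h2
      · exact absurd (smul_left_cancel h (h1.trans h2.symm)) hab
      · exact Or.inl ⟨h1, h2⟩
      · exact Or.inr ⟨h1, h2⟩
      · exact absurd (smul_left_cancel h (h1.trans h2.symm)) hab
    by_cases hall : ∀ h ∈ H, h • a = a
    · exfalso
      apply hH
      apply K.isCyclic_of_fix H hab
      intro x hx
      refine ⟨hall x hx, ?_⟩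
      rcases hfixb x hx with h2 | h2
      · exact absurd (smul_left_cancel x ((hall x hx).trans h2.symm)) hab
      · exact h2
    push Not at hall
    obtain ⟨s, hs, hsa⟩ := hall
    have hsa' : s • a = b := (hfixa s hs).resolve_left hsa
    have hsb' : s • b = a := by
      rcases hfixb s hs with h2 | h2
      · exact h2
      · exact absurd (smul_left_cancel s (hsa'.trans h2.symm)) hab
    obtain ⟨-, hinv⟩ := K.swap s a b hab hsa' hsb'
    have hyy : y = y⁻¹ := by
      have h1 := hinv y hya hyb
      rw [hc s hs, mul_inv_cancel_right] at h1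
      exact h1
    have hoy : orderOf y = 2 := by
      apply orderOf_eq_prime _ hy1
      rw [sq]
      nth_rewrite 1 [hyy]
      exact inv_mul_cancel y
    have hcard : Nat.card H = 2 * Nat.card (H ⊓ Tp a b : Subgroup (PGL2 F)) :=
      (dihedral_of_le_Dp hab H hDp hs hsa').1
    have hne : (H ⊓ Tp a b : Subgroup (PGL2 F)) ≠ ⊥ := by
      intro h0
      rw [h0, Subgroup.card_bot, mul_one] at hcard
      apply hH
      haveI : Fact (Nat.card H).Prime := ⟨by rw [hcard]; exact Nat.prime_two⟩
      exact isCyclic_of_prime_card rfl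
    obtain ⟨h₀, hh₀, hh₀1⟩ := (Subgroup.bot_or_exists_ne_one _).resolve_left hne
    let T : Subgroup (PGL2 F) := Tp (F := F) a b ⊓ Lp F
    have hyT : y ∈ T := ⟨⟨hya, hyb⟩, hyL⟩
    have hcardT := card_Tp_inf_Lp hpair
    have hcardTp : Nat.card (Tp (F := F) a b) = Fintype.card F - 1 ∨
        Nat.card (Tp (F := F) a b) = Fintype.card F + 1 := by
      rcases hpair with h1 | h1
      · exact Or.inl (card_Tp_split h1)
      · exact Or.inr (card_Tp_nonsplit h1)
    have hevenT : Even (Nat.card T) := by
      have h1 := Subgroup.orderOf_dvd_natCard T hyT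
      rw [hoy] at h1
      exact even_iff_two_dvd.2 h1
    obtain ⟨k, hk⟩ := hT _ hevenT (by rw [hcardT]; exact hcardTp)
    have hh₀T : h₀ ∈ T := ⟨hh₀.2, hHL hh₀.1⟩
    have hord : orderOf h₀ ∣ 2 ^ k := by
      rw [← hk]
      exact Subgroup.orderOf_dvd_natCard T hh₀T
    obtain ⟨i, -, hi⟩ := (Nat.dvd_prime_pow Nat.prime_two).1 hord
    have hi0 : i ≠ 0 := by
      rintro rfl
      rw [pow_zero, orderOf_eq_one_iff] at hi
      exact hh₀1 hi
    have h2dvd : 2 ∣ orderOf h₀ := by
      rw [hi]
      exact dvd_pow_self 2 hi0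
    have hord0 : orderOf h₀ ≠ 0 := by
      rw [hi]
      positivity
    have ho1 : orderOf (h₀ ^ (orderOf h₀ / 2)) = 2 := orderOf_pow_orderOf_div hord0 h2dvd
    have hh1T : h₀ ^ (orderOf h₀ / 2) ∈ T := T.pow_mem hh₀T _
    have hTcyc : IsCyclic T := by
      apply K.isCyclic_of_fix T hab
      intro x hx
      exact hx.1
    have heq : (⟨y, hyT⟩ : T) = ⟨_, hh1T⟩ :=
      cyclic_involution_unique (by rw [Subgroup.orderOf_mk]; exact hoy)
        (by rw [Subgroup.orderOf_mk]; exact ho1)
    have heq' : y = h₀ ^ (orderOf h₀ / 2) := congrArg Subtype.val heq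
    rw [heq']
    exact H.pow_mem hh₀.1 _

end Cfsg.Agent.Lib.SelfCent.PSLCore
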