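import Cfsg.Agent.Lib.SelfCent.Key
import Cfsg.Agent.Lib.TwoFusion.IndexTwo
import Cfsg.Agent.Lib.TwoGroups.QDMax

/-!
# Exclusion of quasi-dihedral Sylow `2`-subgroups
-/

set_option autoImplicit false
set_option linter.unusedSectionVars false
set_option linter.style.haveILetI false

namespace Cfsg.Agent.Lib.SelfCent.SD

open Subgroup Cfsg Cfsg.Agent.Lib.SelfCent.Key Cfsg.Agent.Lib.TwoGroups.QD
open Cfsg.Agent.Lib.TwoFusion.QDLocal

variable {G : Type*} [Group G]

theorem no_quasiDihedral [Finite G] (hSC : SC G) (S : Sylow 2 G)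
    (hS : IsQuasiDihedral (S : Subgroup G)) (hno : ∀ H : Subgroup G, H.index ≠ 2) : False := by
  classical
  haveI : Fact (Nat.Prime 2) := ⟨Nat.prime_two⟩
  obtain ⟨n, K, x, y, hn, hcard, hK, D⟩ := exists_data hS
  -- notation
  let z : (S : Subgroup G) := x ^ (4 * K)
  let t : G := z
  let y₀ : G := y
  have hzo : orderOf z = 2 := D.orderOf_z
  have ht : orderOf t = 2 := by rw [Subgroup.orderOf_coe]; exact hzo
  have hy : orderOf y₀ = 2 := by rw [Subgroup.orderOf_coe]; exact D.oy
  have htt : t * t = 1 := by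
    have h1 := pow_orderOf_eq_one t
    rw [ht, sq] at h1
    exact h1
  have hyy : y₀ * y₀ = 1 := by
    have h1 := pow_orderOf_eq_one y₀
    rw [hy, sq] at h1
    exact h1
  have hzc : ∀ s : (S : Subgroup G), (s : G) * t = t * (s : G) := fun s =>
    (congrArg Subtype.val (D.z_central s)).symm
  have hyt : y₀ ≠ t := by
    intro h1
    have h2 : y = x ^ (4 * K) := Subtype.ext h1
    exact D.y_ne_zpow _ h2
  have htyc : t * y₀ = y₀ * t := (hzc y).symm
  have hyS : y₀ ∈ (S : Subgroup G) := y.2
  have htS : t ∈ (S : Subgroup G) := z.2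
  -- the common centralizer lies in `S`
  have hV : ∀ c : G, c * t = t * c → c * y₀ = y₀ * c → c ∈ (S : Subgroup G) := by
    intro c h1 h2
    rcases klein_cases hSC ht hy hyt htyc h1 h2 with rfl | rfl | rfl | rfl
    · exact one_mem _
    · exact htS
    · exact hyS
    · exact mul_mem htS hyS
  -- involutions of `S`
  have hconjS : ∀ w : (S : Subgroup G), w * w = 1 → w ≠ 1 → w ≠ z →
      ∃ s : (S : Subgroup G), w = s * y * s⁻¹ := by
    intro w h1 h2 h3
    rcases D.inv_cases h1 with h4 | h4 | ⟨a, h4⟩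
    · exact absurd h4 h2
    · exact absurd h4 h3
    · have h5 := D.isConj_shift 0 a
      obtain ⟨c, hc⟩ := isConj_iff.1 h5
      refine ⟨c, ?_⟩
      rw [h4]
      simpa using hc.symm
  -- a central involution of `S` is `t`
  have hcentral : ∀ w : (S : Subgroup G), (∀ s : (S : Subgroup G), s * w = w * s) → w * w = 1 →
      w ≠ 1 → w = z := by
    intro w h1 h2 h3
    by_contra h4
    have hwo : orderOf (w : G) = 2 := by
      rw [Subgroup.orderOf_coe]
      exact orderOf_eq_prime (by rw [sq]; exact h2) h3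
    have hwt : (w : G) ≠ t := fun h5 => h4 (Subtype.ext h5)
    have h5 := klein_cases hSC ht hwo hwt (hzc w).symm (hzc x) (congrArg Subtype.val (h1 x))
    have hxx : x * x = 1 := by
      have : (x : G) * (x : G) = 1 := by
        have hwww : (w : G) * (w : G) = 1 := congrArg Subtype.val h2
        rcases h5 with h5 | h5 | h5 | h5 <;> rw [h5]
        · simp
        · exact htt
        · exact hwww
        · calc t * (w : G) * (t * (w : G)) = t * ((w : G) * t) * (w : G) := by group
            _ = t * (t * (w : G)) * (w : G) := by rw [hzc w]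
            _ = (t * t) * ((w : G) * (w : G)) := by group
            _ = 1 := by rw [htt, hwww, one_mul]
      exact Subtype.ext this
    have h6 : orderOf x ∣ 2 := orderOf_dvd_of_pow_eq_one (by rw [sq]; exact hxx)
    have h7 := D.ox
    have h8 : (orderOf x : ℤ) ∣ 2 := by exact_mod_cast h6
    rw [h7] at h8
    have h9 := Int.le_of_dvd (by norm_num) h8
    have := D.Kpos
    omega
  -- the centralizer of `t` is `S`
  have hCS : ∀ c : G, c * t = t * c → c ∈ (S : Subgroup G) := by
    intro c hc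
    set w : G := c * y₀ * c⁻¹ with hw
    have hww : w * w = 1 := by
      rw [hw]
      calc c * y₀ * c⁻¹ * (c * y₀ * c⁻¹) = c * (y₀ * y₀) * c⁻¹ := by group
        _ = 1 := by rw [hyy]; group
    have hwt : t * w = w * t := by
      have h1 : c⁻¹ * t = t * c⁻¹ := by
        calc c⁻¹ * t = c⁻¹ * (t * c) * c⁻¹ := by group
          _ = c⁻¹ * (c * t) * c⁻¹ := by rw [hc]
          _ = t * c⁻¹ := by group
      rw [hw]
      calc t * (c * y₀ * c⁻¹) = (t * c) * y₀ * c⁻¹ := by group
        _ = (c * t) * y₀ * c⁻¹ := by rw [hc]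
        _ = c * (t * y₀) * c⁻¹ := by group
        _ = c * (y₀ * t) * c⁻¹ := by rw [htyc]
        _ = c * y₀ * (t * c⁻¹) := by group
        _ = c * y₀ * (c⁻¹ * t) := by rw [h1]
        _ = c * y₀ * c⁻¹ * t := by group
    have hwne1 : w ≠ 1 := by
      rw [hw]
      intro h1
      have h2 : y₀ = 1 := by
        have h3 : c⁻¹ * (c * y₀ * c⁻¹) * c = y₀ := by group
        rw [h1] at h3
        rw [← h3]
        group
      rw [h2] at hy
      simp at hy
    have hwnet : w ≠ t := by
      rw [hw]
      intro h1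
      apply hyt
      have h3 : c⁻¹ * (c * y₀ * c⁻¹) * c = y₀ := by group
      rw [h1] at h3
      rw [← h3]
      calc c⁻¹ * t * c = c⁻¹ * (t * c) := by group
        _ = c⁻¹ * (c * t) := by rw [hc]
        _ = t := by group
    by_cases hwy : w = y₀
    · apply hV c hc
      have h1 : c * y₀ * c⁻¹ * c = y₀ * c := by rw [← hw, hwy]
      rw [inv_mul_cancel_right] at h1
      exact h1
    obtain ⟨e, he⟩ := two_element hSC ht hyy hww htyc hwt
    set d : G := y₀ * w with hd
    have hpd : IsPGroup 2 (zpowers d) := by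
      rintro ⟨g, hg⟩
      obtain ⟨m, rfl⟩ := mem_zpowers_iff.1 hg
      refine ⟨e, Subtype.ext ?_⟩
      show (d ^ m) ^ (2 ^ e) = 1
      rw [← zpow_natCast, ← zpow_mul, mul_comm, zpow_mul, zpow_natCast, he, one_zpow]
    have hpy : IsPGroup 2 (zpowers y₀) := by
      apply IsPGroup.of_card (n := 1)
      rw [Nat.card_zpowers, hy, pow_one]
    have hyinv : y₀⁻¹ = y₀ := inv_eq_of_mul_eq_one_left hyy
    have hwinv : w⁻¹ = w := inv_eq_of_mul_eq_one_left hww
    have hdinv : y₀ * d * y₀⁻¹ = d⁻¹ := by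
      rw [hyinv, hd, mul_inv_rev, hyinv, hwinv]
      calc y₀ * (y₀ * w) * y₀ = (y₀ * y₀) * w * y₀ := by group
        _ = w * y₀ := by rw [hyy, one_mul]
    have hN : zpowers y₀ ≤ normalizer ((zpowers d : Subgroup G) : Set G) := by
      rw [Subgroup.zpowers_le]
      apply mem_normalizer_of_conj_mem
      rintro _ ⟨k, rfl⟩
      change y₀ * d ^ k * y₀⁻¹ ∈ _
      rw [← conj_zpow, hdinv]
      exact Subgroup.zpow_mem _ (Subgroup.inv_mem _ (Subgroup.mem_zpowers d)) _
    have hP : IsPGroup 2 (zpowers y₀ ⊔ zpowers d : Subgroup G) :=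
      IsPGroup.to_sup_of_normal_right' hpy hpd hN
    let C : Subgroup G := centralizer ({t} : Set G)
    have hmemC : ∀ g : G, t * g = g * t → g ∈ C := fun g h1 => mem_centralizer_singleton_iff.2 h1.symm
    have hSleC : (S : Subgroup G) ≤ C := fun s hs => hmemC s (hzc ⟨s, hs⟩).symm
    have hdC : d ∈ C := by
      apply hmemC
      rw [hd]
      calc t * (y₀ * w) = (t * y₀) * w := by group
        _ = y₀ * (t * w) := by rw [htyc]; group
        _ = y₀ * (w * t) := by rw [hwt]
        _ = y₀ * w * t := by group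
    have hPC : (zpowers y₀ ⊔ zpowers d : Subgroup G) ≤ C := by
      apply sup_le
      · rw [Subgroup.zpowers_le]
        exact hmemC _ htyc
      · rw [Subgroup.zpowers_le]
        exact hdC
    obtain ⟨S₂, hS₂C, hPS₂⟩ := exists_sylow_over S hSleC hP hPC
    obtain ⟨g, rfl⟩ := MulAction.exists_smul_eq G S S₂
    -- `g` centralizes `t`
    set τ : G := g⁻¹ * t * g with hτ
    have hτc : ∀ s ∈ (S : Subgroup G), s * τ = τ * s := by
      intro s hs
      have h1 : g * s * g⁻¹ ∈ ((g • S : Sylow 2 G) : Subgroup G) := by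
        rw [mem_smul_iff]
        convert hs using 1
        group
      have h2 : (g * s * g⁻¹) * t = t * (g * s * g⁻¹) := mem_centralizer_singleton_iff.1 (hS₂C h1)
      rw [hτ]
      calc s * (g⁻¹ * t * g) = g⁻¹ * ((g * s * g⁻¹) * t) * g := by group
        _ = g⁻¹ * (t * (g * s * g⁻¹)) * g := by rw [h2]
        _ = g⁻¹ * t * g * s := by group
    have hτττ : τ * τ = 1 := by
      rw [hτ]
      calc g⁻¹ * t * g * (g⁻¹ * t * g) = g⁻¹ * (t * t) * g := by group
        _ = 1 := by rw [htt]; group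
    have hτ1 : τ ≠ 1 := by
      rw [hτ]
      intro h1
      have h2 : t = 1 := by
        have h3 : g * (g⁻¹ * t * g) * g⁻¹ = t := by group
        rw [h1] at h3
        rw [← h3]
        group
      rw [h2] at ht
      simp at ht
    have hτS : τ ∈ (S : Subgroup G) := by
      have hpτ : IsPGroup 2 (zpowers τ) := by
        apply IsPGroup.of_card (n := 1)
        rw [Nat.card_zpowers, orderOf_eq_prime (by rw [sq]; exact hτττ) hτ1, pow_one]
      have hNτ : zpowers τ ≤ normalizer (((S : Subgroup G) : Subgroup G) : Set G) := by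
        rw [Subgroup.zpowers_le]
        apply mem_normalizer_of_conj_mem
        intro a ha
        have ha' : a ∈ (S : Subgroup G) := ha
        change τ * a * τ⁻¹ ∈ _
        rw [← hτc a ha', mul_inv_cancel_right]
        exact ha'
      have h3 : IsPGroup 2 (zpowers τ ⊔ (S : Subgroup G) : Subgroup G) :=
        IsPGroup.to_sup_of_normal_right' hpτ S.isPGroup' hNτ
      have h4 := S.is_maximal' h3 le_sup_right
      rw [← h4]
      exact mem_sup_left (mem_zpowers τ)
    have hτz : τ = t := by
      have h1 := hcentral ⟨τ, hτS⟩ (fun s => Subtype.ext (hτc s s.2)) (Subtype.ext hτττ)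
        (fun h => hτ1 (congrArg Subtype.val h))
      exact congrArg Subtype.val h1
    have hgt : g * t = t * g := by
      calc g * t = g * τ := by rw [hτz]
        _ = t * g := by rw [hτ]; group
    have hy₀S₂ : y₀ ∈ ((g • S : Sylow 2 G) : Subgroup G) := hPS₂ (mem_sup_left (mem_zpowers y₀))
    rw [mem_smul_iff] at hy₀S₂
    let v : (S : Subgroup G) := ⟨g⁻¹ * y₀ * g, hy₀S₂⟩
    have hvv : v * v = 1 := by
      apply Subtype.ext
      show g⁻¹ * y₀ * g * (g⁻¹ * y₀ * g) = 1
      calc g⁻¹ * y₀ * g * (g⁻¹ * y₀ * g) = g⁻¹ * (y₀ * y₀) * g := by group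
        _ = 1 := by rw [hyy]; group
    have hy1 : y₀ ≠ 1 := by
      intro h1
      rw [h1] at hy
      simp at hy
    have hv1 : v ≠ 1 := by
      intro h1
      have h2 : g⁻¹ * y₀ * g = 1 := congrArg Subtype.val h1
      apply hy1
      have h3 : g * (g⁻¹ * y₀ * g) * g⁻¹ = y₀ := by group
      rw [h2] at h3
      rw [← h3]
      group
    have hvz : v ≠ z := by
      intro h1
      have h2 : g⁻¹ * y₀ * g = t := congrArg Subtype.val h1
      apply hyt
      have h3 : g * (g⁻¹ * y₀ * g) * g⁻¹ = y₀ := by group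
      rw [h2] at h3
      rw [← h3, hgt]
      group
    obtain ⟨s, hs⟩ := hconjS v hvv hv1 hvz
    have hs' : g⁻¹ * y₀ * g = (s : G) * y₀ * (s : G)⁻¹ := congrArg Subtype.val hs
    have hgs1 : (g * s) * t = t * (g * s) := by
      calc (g * (s : G)) * t = g * ((s : G) * t) := by group
        _ = g * (t * s) := by rw [hzc s]
        _ = (g * t) * s := by group
        _ = (t * g) * s := by rw [hgt]
        _ = t * (g * s) := by group
    have hgs2 : (g * s) * y₀ = y₀ * (g * s) := by
      calc (g * (s : G)) * y₀ = g * ((s : G) * y₀ * (s : G)⁻¹) * s := by group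
        _ = g * (g⁻¹ * y₀ * g) * s := by rw [hs']
        _ = y₀ * (g * s) := by group
    have hgsS := hV _ hgs1 hgs2
    have hgS : g ∈ (S : Subgroup G) := by
      have := mul_mem hgsS (inv_mem s.2)
      simpa using this
    have hwS₂ : w ∈ ((g • S : Sylow 2 G) : Subgroup G) := by
      have h1 : w = y₀ * d := by
        rw [hd, ← mul_assoc, hyy, one_mul]
      rw [h1]
      exact hPS₂ (mul_mem (mem_sup_left (mem_zpowers y₀)) (mem_sup_right (mem_zpowers d)))
    rw [mem_smul_iff] at hwS₂
    have hwS : w ∈ (S : Subgroup G) := by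
      have h1 := mul_mem (mul_mem hgS hwS₂) (inv_mem hgS)
      have h2 : g * (g⁻¹ * w * g) * g⁻¹ = w := by group
      rwa [h2] at h1
    let w' : (S : Subgroup G) := ⟨w, hwS⟩
    obtain ⟨s', hs'⟩ := hconjS w' (Subtype.ext hww) (fun h => hwne1 (congrArg Subtype.val h))
      (fun h => hwnet (congrArg Subtype.val h))
    have hs'' : c * y₀ * c⁻¹ = (s' : G) * y₀ * (s' : G)⁻¹ := congrArg Subtype.val hs'
    have hsc1 : ((s' : G)⁻¹ * c) * t = t * ((s' : G)⁻¹ * c) := by
      have h1 : (s' : G)⁻¹ * t = t * (s' : G)⁻¹ := by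
        calc (s' : G)⁻¹ * t = (s' : G)⁻¹ * (t * s') * (s' : G)⁻¹ := by group
          _ = (s' : G)⁻¹ * ((s' : G) * t) * (s' : G)⁻¹ := by rw [hzc s']
          _ = t * (s' : G)⁻¹ := by group
      calc ((s' : G)⁻¹ * c) * t = (s' : G)⁻¹ * (c * t) := by group
        _ = (s' : G)⁻¹ * (t * c) := by rw [hc]
        _ = ((s' : G)⁻¹ * t) * c := by group
        _ = (t * (s' : G)⁻¹) * c := by rw [h1]
        _ = t * ((s' : G)⁻¹ * c) := by group
    have hsc2 : ((s' : G)⁻¹ * c) * y₀ = y₀ * ((s' : G)⁻¹ * c) := by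
      calc ((s' : G)⁻¹ * c) * y₀ = (s' : G)⁻¹ * (c * y₀ * c⁻¹) * c := by group
        _ = (s' : G)⁻¹ * ((s' : G) * y₀ * (s' : G)⁻¹) * c := by rw [hs'']
        _ = y₀ * ((s' : G)⁻¹ * c) := by group
    have h1 := hV _ hsc1 hsc2
    have h2 := mul_mem s'.2 h1
    simpa using h2
  -- powers
  have hpowz : ∀ s : (S : Subgroup G), s * s ≠ 1 → s ^ (orderOf s / 2) = z := by
    intro s hs
    have hord : orderOf s ∣ 2 ^ (n + 1) := by
      rw [← hcard]
      exact orderOf_dvd_natCard s
    obtain ⟨i, -, hi⟩ := (Nat.dvd_prime_pow Nat.prime_two).1 hord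
    have hi2 : 2 ≤ i := by
      by_contra hlt
      apply hs
      have h1 : orderOf s ∣ 2 := by
        rw [hi]
        exact (pow_dvd_pow 2 (show i ≤ 1 by omega)).trans (by norm_num)
      rw [← sq]
      exact orderOf_dvd_iff_pow_eq_one.1 h1
    obtain ⟨i', rfl⟩ : ∃ i', i = i' + 2 := ⟨i - 2, by omega⟩
    have hdiv : orderOf s / 2 = 2 * 2 ^ i' := by
      rw [hi, show 2 ^ (i' + 2) = 2 * (2 * 2 ^ i') by ring]
      exact Nat.mul_div_cancel_left _ (by norm_num)
    have hord0 : orderOf s ≠ 0 := by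
      rw [hi]
      positivity
    have h2d : 2 ∣ orderOf s := by
      rw [hi]
      exact dvd_pow_self 2 (by omega)
    have hro : orderOf (s ^ (orderOf s / 2)) = 2 := orderOf_pow_orderOf_div hord0 h2d
    have hrr : s ^ (orderOf s / 2) * s ^ (orderOf s / 2) = 1 := by
      have h1 := pow_orderOf_eq_one (s ^ (orderOf s / 2))
      rw [hro, sq] at h1
      exact h1
    have hr1 : s ^ (orderOf s / 2) ≠ 1 := by
      intro h1
      rw [h1, orderOf_one] at hro
      omega
    rcases D.inv_cases hrr with h | h | ⟨a, h⟩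
    · exact absurd h hr1
    · exact h
    · exfalso
      obtain ⟨j, hj⟩ : ∃ j : ℤ, s * s = x ^ j := by
        rcases D.elem_cases s with ⟨i, rfl⟩ | ⟨i, rfl⟩
        · exact ⟨i + i, (zpow_add _ _ _).symm⟩
        · exact ⟨4 * K * i, D.xy_mul_self i⟩
      have h3 : s ^ (orderOf s / 2) = x ^ (j * 2 ^ i') := by
        rw [hdiv, pow_mul, sq, hj, ← zpow_natCast, ← zpow_mul]
        push_cast
        rfl
      exact D.zpow_mul_y_ne (2 * a) (j * 2 ^ i') (h.symm.trans h3)
  obtain ⟨K₁, -, hK₁, -⟩ := Cfsg.Agent.Lib.TwoFusion.IndexTwo.exists_index_two S D.M3 D.index_M3 (by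
    intro a b g hb ha
    by_cases hbb : b * b = 1
    · rcases D.inv_cases hbb with h | h | ⟨i, h⟩
      · rw [h]
        exact one_mem _
      · rw [h]
        exact (D.zpow_mem_M3 _).2 ⟨2 * K, by ring⟩
      · rw [h]
        exact (D.zpow_y_mem_M3 _).2 ⟨i, rfl⟩
    · have haa : a * a ≠ 1 := by
        intro h1
        apply hbb
        apply Subtype.ext
        have h2 : (a : G) * (a : G) = 1 := congrArg Subtype.val h1
        show (b : G) * (b : G) = 1
        rw [hb]
        calc g * (a : G) * g⁻¹ * (g * (a : G) * g⁻¹) = g * ((a : G) * (a : G)) * g⁻¹ := by group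
          _ = 1 := by rw [h2]; group
      have hord : orderOf b = orderOf a := by
        rw [← Subgroup.orderOf_coe, ← Subgroup.orderOf_coe a, hb]
        have : g * (a : G) * g⁻¹ = MulAut.conj g (a : G) := rfl
        rw [this, MulEquiv.orderOf_eq]
      have h1 := hpowz a haa
      have h2 := hpowz b hbb
      rw [hord] at h2
      have h3 : ((a ^ (orderOf a / 2) : (S : Subgroup G)) : G) = t := congrArg Subtype.val h1
      have h4 : ((b ^ (orderOf a / 2) : (S : Subgroup G)) : G) = t := congrArg Subtype.val h2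
      have h5 : t = g * t * g⁻¹ := by
        rw [← h3]
        nth_rewrite 1 [h3, ← h4]
        push_cast
        rw [hb, conj_pow]
      have hgS : g ∈ (S : Subgroup G) := by
        apply hCS
        calc g * t = g * t * g⁻¹ * g := by group
          _ = t * g := by rw [← h5]
      have hbeq : b = ⟨g, hgS⟩ * a * (⟨g, hgS⟩ : (S : Subgroup G))⁻¹ := Subtype.ext hb
      rw [hbeq]
      haveI : D.M3.Normal := Subgroup.normal_of_index_eq_two D.index_M3
      exact Subgroup.Normal.conj_mem ‹_› a ha _)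
  exact hno K₁ hK₁

end Cfsg.Agent.Lib.SelfCent.SD
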