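import Cfsg.Agent.Lib.SelfCent.PSLCore

/-!
# Tori of `PSL₂(F)` and arithmetic
-/

set_option autoImplicit false
set_option linter.unusedSectionVars false
set_option linter.style.haveILetI false

open scoped MatrixGroups
open Matrix OnePoint MulAction

namespace Cfsg.Agent.Lib.SelfCent.Torus

open Cfsg.Agent.Lib.Classical.SL2.Moebius Cfsg.Agent.Lib.Classical.SL2.Rational
open Cfsg.Agent.Lib.Classical.SL2.Klein Cfsg.Agent.Lib.Classical.SL2.SubfieldCase
open Cfsg.Agent.Lib.Classical.SL2.Dickson Cfsg.Agent.Lib.Classical.SL2.Precise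
open Cfsg.Agent.Lib.Classical.SL2.Tori
open Cfsg.Agent.Lib.Classical
open Cfsg.Agent.Lib.SelfCent.Key

local notation "PGL2" => ProjGenLinGroup (Fin 2)
local notation "PSL2" => ProjectiveSpecialLinearGroup (Fin 2)

variable {F : Type*} [Field F] [Fintype F]

/-- If `t, s, y` as in `key` force `y = 1` in `PSL₂(F)`, `F` odd, then `q - 1` or `q + 1` is a power of `2`. -/
theorem torus_two_pow (hodd : Odd (Fintype.card F))
    (hKey : ∀ t s y : PGL2 F, t ∈ Lp F → s ∈ Lp F → y ∈ Lp F → orderOf t = 2 → s * s = 1 →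
      Odd (orderOf y) → s * y * s⁻¹ = y⁻¹ → t * y = y * t → t * s = s * t → y = 1) :
    ∃ k : ℕ, Fintype.card F - 1 = 2 ^ k ∨ Fintype.card F + 1 = 2 ^ k := by
  classical
  let E := AlgebraicClosure F
  obtain ⟨p, hp⟩ := CharP.exists E
  have hq1 : 1 < Fintype.card F := Fintype.one_lt_card
  have hd : Nat.gcd 2 (Fintype.card F - 1) = 2 := by
    apply Nat.gcd_eq_left
    obtain ⟨m, hm⟩ := hodd
    rw [hm]
    exact ⟨m, by simp⟩
  -- choose the pair
  obtain ⟨a, b, hpair, hcardTp⟩ : ∃ a b : OnePoint E, (SplitPair F a b ∨ NonsplitPair F a b) ∧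
      ((Nat.card (Tp (F := F) a b) = Fintype.card F - 1 ∧ Fintype.card F % 4 = 1) ∨
        (Nat.card (Tp (F := F) a b) = Fintype.card F + 1 ∧ Fintype.card F % 4 = 3)) := by
    have h4 : Fintype.card F % 4 = 1 ∨ Fintype.card F % 4 = 3 := by
      obtain ⟨m, hm⟩ := hodd
      omega
    rcases h4 with h4 | h4
    · have hs : SplitPair F (ιp E (∞ : OnePoint F)) (ιp E ((0 : F) : OnePoint F)) :=
        ⟨_, _, OnePoint.infty_ne_coe _, rfl, rfl⟩
      exact ⟨_, _, Or.inl hs, Or.inl ⟨card_Tp_split hs, h4⟩⟩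
    · obtain ⟨z, h1, h2⟩ := exists_nonsplit (F := F) E
      have hs : NonsplitPair F ((z : E) : OnePoint E) ((z ^ Fintype.card F : E) : OnePoint E) :=
        ⟨z, rfl, rfl, h1, h2⟩
      exact ⟨_, _, Or.inr hs, Or.inr ⟨card_Tp_nonsplit hs, h4⟩⟩
  have hab : a ≠ b := pair_ne hpair
  let T : Subgroup (PGL2 F) := Tp (F := F) a b ⊓ Lp F
  have hcardT : Nat.card T * 2 = Nat.card (Tp (F := F) a b) := by
    have := card_Tp_inf_Lp hpair
    rwa [hd] at this
  have heven : Even (Nat.card T) := by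
    rw [even_iff_two_dvd]
    omega
  letI : MulAction (PGL2 F) (OnePoint E) := MulAction.compHom _ (toE E)
  let K : KleinAction (PGL2 F) (OnePoint E) E p :=
    (kleinPGL p).comap (toE E) (toE_injective E) (fun _ _ => rfl)
  have hTcyc : IsCyclic T := K.isCyclic_of_fix T hab (fun x hx => hx.1)
  obtain ⟨s, hsL, hsa, hsb⟩ := exists_swap_Lp hpair
  obtain ⟨hss, hinv⟩ := K.swap s a b hab hsa hsb
  haveI : Fact (Nat.Prime 2) := ⟨Nat.prime_two⟩
  obtain ⟨t, ht⟩ := exists_prime_orderOf_dvd_card' (G := T) 2 (even_iff_two_dvd.1 heven)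
  have htG : orderOf (t : PGL2 F) = 2 := by
    rw [Subgroup.orderOf_coe]
    exact ht
  have hsinv : s⁻¹ = s := inv_eq_of_mul_eq_one_left hss
  have htt : (t : PGL2 F) * (t : PGL2 F) = 1 := by
    have h1 := pow_orderOf_eq_one (t : PGL2 F)
    rw [htG, sq] at h1
    exact h1
  have hts : (t : PGL2 F) * s = s * (t : PGL2 F) := by
    have h1 := hinv (t : PGL2 F) t.2.1.1 t.2.1.2
    have h2 : (t : PGL2 F)⁻¹ = t := inv_eq_of_mul_eq_one_left htt
    rw [h2] at h1
    calc (t : PGL2 F) * s = (s * (t : PGL2 F) * s⁻¹) * s := by rw [h1]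
      _ = s * (t : PGL2 F) := by group
  rcases Nat.eq_two_pow_or_exists_odd_prime_and_dvd (Nat.card T) with ⟨j, hj⟩ | ⟨r, hr, hrd, hro⟩
  · rcases hcardTp with ⟨h1, -⟩ | ⟨h1, -⟩
    · exact ⟨j + 1, Or.inl (by rw [pow_succ, ← hj, ← h1, hcardT])⟩
    · exact ⟨j + 1, Or.inr (by rw [pow_succ, ← hj, ← h1, hcardT])⟩
  · exfalso
    haveI : Fact r.Prime := ⟨hr⟩
    obtain ⟨y, hy⟩ := exists_prime_orderOf_dvd_card' (G := T) r hrd
    have hyG : orderOf (y : PGL2 F) = r := by
      rw [Subgroup.orderOf_coe]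
      exact hy
    have hty : (t : PGL2 F) * (y : PGL2 F) = (y : PGL2 F) * (t : PGL2 F) :=
      congrArg Subtype.val (mul_comm_of_isCyclic T t y)
    have h1 := hKey (t : PGL2 F) s (y : PGL2 F) t.2.2 hsL y.2.2 htG hss (by rw [hyG]; exact hro)
      (hinv (y : PGL2 F) y.2.1.1 y.2.1.2) hty hts
    rw [h1, orderOf_one] at hyG
    exact hr.one_lt.ne hyG

/-- Odd powers: `p^(2g+1) - δ = (p - δ) m` with `m` odd. -/
lemma exists_odd_quot (p δ : ℤ) (hp : Odd p) (hδ : Odd δ) (g : ℕ) (hδ2 : δ ^ 2 = 1) :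
    ∃ m : ℤ, Odd m ∧ p ^ (2 * g + 1) - δ = (p - δ) * m := by
  induction g with
  | zero => exact ⟨1, odd_one, by simp⟩
  | succ g ih =>
    obtain ⟨m, hm, hm2⟩ := ih
    refine ⟨p ^ 2 * m + δ * p + 1, ?_, ?_⟩
    · have h1 : Odd (p ^ 2 * m) := (hp.pow).mul hm
      have h2 : Odd (δ * p) := hδ.mul hp
      exact (h1.add_odd h2).add_one
    · have h1 : p ^ (2 * (g + 1) + 1) = p ^ 2 * p ^ (2 * g + 1) := by ring
      have h2 : p ^ (2 * g + 1) = (p - δ) * m + δ := by linarith
      rw [h1, h2]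
      linear_combination p * hδ2

/-- A prime power `q = p^f`, `p` odd, with `q ± 1` a power of `2` is prime or equal to `9`. -/
theorem prime_or_nine {p f k : ℕ} (hp : p.Prime) (hodd : Odd p) (hf : 1 ≤ f)
    (h : p ^ f - 1 = 2 ^ k ∨ p ^ f + 1 = 2 ^ k) : (p ^ f).Prime ∨ p ^ f = 9 := by
  have hp3 : 3 ≤ p := by
    have := hp.two_le
    obtain ⟨m, hm⟩ := hodd
    omega
  rcases Nat.even_or_odd' f with ⟨g, rfl | rfl⟩
  · -- even
    have hg : 1 ≤ g := by omega
    set P := p ^ g with hP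
    have hP3 : 3 ≤ P := by
      calc 3 ≤ p := hp3
        _ = p ^ 1 := (pow_one p).symm
        _ ≤ p ^ g := Nat.pow_le_pow_right (by omega) hg
    have hPodd : Odd P := hodd.pow
    have hq : p ^ (2 * g) = P * P := by rw [hP, ← pow_add]; congr 1; omega
    rw [hq] at h ⊢
    right
    obtain ⟨m, hm⟩ := hPodd
    rcases h with h | h
    · have hfac : (P - 1) * (P + 1) = 2 ^ k := by
        rw [← h]
        obtain ⟨c, hc⟩ : ∃ c, P = c + 1 := ⟨P - 1, by omega⟩
        rw [hc]
        simp only [Nat.add_sub_cancel]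
        have : (c + 1) * (c + 1) - 1 = c * (c + 1 + 1) := by
          have : (c + 1) * (c + 1) = c * (c + 1 + 1) + 1 := by ring
          omega
        rw [this]
      obtain ⟨a, -, ha⟩ := (Nat.dvd_prime_pow Nat.prime_two).1 (Dvd.intro _ hfac)
      obtain ⟨b, -, hb⟩ := (Nat.dvd_prime_pow Nat.prime_two).1 (Dvd.intro_left _ hfac)
      have hab : 2 ^ b = 2 ^ a + 2 := by omega
      have ha1 : a = 1 := by
        by_contra hne
        have ha0 : a ≠ 0 := by
          rintro rfl
          omega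
        obtain ⟨a', rfl⟩ : ∃ a', a = a' + 2 := ⟨a - 2, by omega⟩
        have hb2 : b = 1 ∨ b = 0 ∨ 2 ≤ b := by omega
        have h4 : 2 ^ (a' + 2) = 4 * 2 ^ a' := by ring
        have hpos : 0 < 2 ^ a' := by positivity
        rcases hb2 with rfl | rfl | hb2
        · simp at hab
        · simp at hab
        · obtain ⟨b', rfl⟩ : ∃ b', b = b' + 2 := ⟨b - 2, by omega⟩
          have h5 : 2 ^ (b' + 2) = 4 * 2 ^ b' := by ring
          omega
      subst ha1
      have : P = 3 := by omega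
      rw [this]
    · exfalso
      have hm2 : P * P % 4 = 1 := by
        rw [hm]
        have : (2 * m + 1) * (2 * m + 1) = 4 * (m * m + m) + 1 := by ring
        omega
      have hk : k = 1 ∨ k = 0 ∨ 2 ≤ k := by omega
      rcases hk with rfl | rfl | hk
      · have : 9 ≤ P * P := Nat.mul_le_mul hP3 hP3
        omega
      · omega
      · obtain ⟨k', rfl⟩ : ∃ k', k = k' + 2 := ⟨k - 2, by omega⟩
        have h5 : 2 ^ (k' + 2) = 4 * 2 ^ k' := by ring
        omega
  · -- odd
    left
    have hp1 : ((p : ℤ)) ≠ 1 := by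
      have : (3 : ℤ) ≤ p := by exact_mod_cast hp3
      omega
    have hOdd : Odd (p : ℤ) := by exact_mod_cast hodd
    have hgo : g = 0 := by
      by_contra hg
      have hlt : p ^ 1 < p ^ (2 * g + 1) := Nat.pow_lt_pow_right (by omega) (by omega)
      rw [pow_one] at hlt
      rcases h with h | h
      · obtain ⟨m, hm, hm2⟩ := exists_odd_quot (p : ℤ) 1 hOdd odd_one g (by norm_num)
        have h1 : ((p : ℤ) ^ (2 * g + 1) - 1) = 2 ^ k := by
          have : ((p ^ (2 * g + 1) - 1 : ℕ) : ℤ) = ((2 ^ k : ℕ) : ℤ) := by rw [h]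
          rw [Nat.cast_sub (by omega)] at this
          push_cast at this
          exact this
        have h2 : m ∣ 2 ^ k := ⟨(p : ℤ) - 1, by rw [← h1, hm2]; ring⟩
        have h3 : m.natAbs ∣ 2 ^ k := by
          have := Int.natAbs_dvd_natAbs.2 h2
          simpa [Int.natAbs_pow] using this
        obtain ⟨i, -, hi⟩ := (Nat.dvd_prime_pow Nat.prime_two).1 h3
        have hmo : Odd m.natAbs := Int.natAbs_odd.2 hm
        have hi0 : i = 0 := by
          by_contra hne
          rw [hi] at hmo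
          have : Even (2 ^ i) := (even_two).pow_of_ne_zero hne
          exact (Nat.not_even_iff_odd.2 hmo) this
        rw [hi0, pow_zero] at hi
        have h4 : m = 1 ∨ m = -1 := by omega
        have hlt' : (p : ℤ) < (p : ℤ) ^ (2 * g + 1) := by exact_mod_cast hlt
        have h3' : (3 : ℤ) ≤ p := by exact_mod_cast hp3
        rcases h4 with rfl | rfl <;> nlinarith
      · obtain ⟨m, hm, hm2⟩ := exists_odd_quot (p : ℤ) (-1) hOdd (by decide) g (by norm_num)
        have h1 : ((p : ℤ) ^ (2 * g + 1) - (-1)) = 2 ^ k := by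
          have : ((p ^ (2 * g + 1) + 1 : ℕ) : ℤ) = ((2 ^ k : ℕ) : ℤ) := by rw [h]
          push_cast at this
          linarith
        have h2 : m ∣ 2 ^ k := ⟨(p : ℤ) - (-1), by rw [← h1, hm2]; ring⟩
        have h3 : m.natAbs ∣ 2 ^ k := by
          have := Int.natAbs_dvd_natAbs.2 h2
          simpa [Int.natAbs_pow] using this
        obtain ⟨i, -, hi⟩ := (Nat.dvd_prime_pow Nat.prime_two).1 h3
        have hmo : Odd m.natAbs := Int.natAbs_odd.2 hm
        have hi0 : i = 0 := by
          by_contra hne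
          rw [hi] at hmo
          have : Even (2 ^ i) := (even_two).pow_of_ne_zero hne
          exact (Nat.not_even_iff_odd.2 hmo) this
        rw [hi0, pow_zero] at hi
        have h4 : m = 1 ∨ m = -1 := by omega
        have hlt' : (p : ℤ) < (p : ℤ) ^ (2 * g + 1) := by exact_mod_cast hlt
        have h3' : (3 : ℤ) ≤ p := by exact_mod_cast hp3
        rcases h4 with rfl | rfl <;> nlinarith
    subst hgo
    simpa using hp

/-- The torus condition of `PSLCore`. -/
theorem hT_of_cond {q : ℕ} (hq : q = 4 ∨ q = 9 ∨ (q.Prime ∧ ∃ k : ℕ, q = 2 ^ k + 1 ∨ q = 2 ^ k - 1)) :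
    ∀ n : ℕ, Even n → (n * Nat.gcd 2 (q - 1) = q - 1 ∨ n * Nat.gcd 2 (q - 1) = q + 1) →
      ∃ k : ℕ, n = 2 ^ k := by
  intro n hn h
  obtain ⟨c, rfl⟩ := hn
  rcases hq with rfl | rfl | ⟨hp, k, hk⟩
  · norm_num at h
    omega
  · norm_num at h
    rcases h with h | h
    · have : c + c = 4 := by omega
      exact ⟨2, by omega⟩
    · omega
  · by_cases h2 : q = 2
    · subst h2
      norm_num at h
      omega
    have hq3 : 3 ≤ q := by
      have := hp.two_le
      omega
    have hodd : Odd q := hp.odd_of_ne_two h2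
    have hg : Nat.gcd 2 (q - 1) = 2 := by
      apply Nat.gcd_eq_left
      obtain ⟨m, hm⟩ := hodd
      rw [hm]
      exact ⟨m, by simp⟩
    rw [hg] at h
    rcases hk with hk | hk
    · obtain ⟨k', rfl⟩ : ∃ k', k = k' + 1 := by
        cases k with
        | zero => simp at hk; omega
        | succ k' => exact ⟨k', rfl⟩
      rw [pow_succ] at hk
      rcases h with h | h
      · exact ⟨k', by omega⟩
      · cases k' with
        | zero => exact ⟨1, by simp at hk; omega⟩
        | succ k'' =>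
          exfalso
          rw [pow_succ] at hk
          omega
    · obtain ⟨k', rfl⟩ : ∃ k', k = k' + 2 := by
        cases k with
        | zero => simp at hk; omega
        | succ k' =>
          cases k' with
          | zero => simp at hk; omega
          | succ k'' => exact ⟨k'', rfl⟩
      have h4 : 2 ^ (k' + 2) = 4 * 2 ^ k' := by ring
      rw [h4] at hk
      rcases h with h | h
      · exfalso
        omega
      · exact ⟨k' + 1, by rw [pow_succ]; omega⟩

end Cfsg.Agent.Lib.SelfCent.Torus
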